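import Mathlib
import Cfsg.Agent.Lib.Helper98.PSL2Even
import Cfsg.Agent.Lib.Helper41.DicksonInst2
import Cfsg.Agent.Lib.Helper41.DicksonRecog

set_option autoImplicit false

namespace Cfsg.Agent.Lib.Helper98

open Matrix Cfsg.Agent.Lib.Helper41 Cfsg.Agent.Lib.Helper5.SL2

section general

variable {G : Type*} [Group G] [Finite G]

/-- a subgroup of small index contains a non-trivial normal subgroup -/
theorem exists_ne_one_normalCore (S : Subgroup G)
    (h : (S.index).factorial < Nat.card G) : ∃ z : G, z ≠ 1 ∧ ∀ g : G, g * z * g⁻¹ ∈ S := by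
  classical
  by_contra hcon
  push Not at hcon
  have hinj : Function.Injective (MulAction.toPermHom G (G ⧸ S)) := by
    rw [injective_iff_map_eq_one]
    intro z hz
    by_contra hz1
    obtain ⟨g, hg⟩ := hcon z hz1
    apply hg
    have hmem : z ∈ S.normalCore := by
      rw [Subgroup.normalCore_eq_ker]
      exact MonoidHom.mem_ker.mpr hz
    exact hmem g
  have hft : Fintype (G ⧸ S) := Fintype.ofFinite _
  have h1 : Nat.card G = Nat.card (MulAction.toPermHom G (G ⧸ S)).range :=
    Nat.card_congr (MonoidHom.ofInjective hinj).toEquiv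
  have h2 := Subgroup.card_subgroup_dvd_card (MulAction.toPermHom G (G ⧸ S)).range
  rw [Nat.card_eq_fintype_card (α := Equiv.Perm (G ⧸ S)), Fintype.card_perm,
    ← Nat.card_eq_fintype_card, ← h1] at h2
  have h3 : Nat.card G ≤ (S.index).factorial := Nat.le_of_dvd (Nat.factorial_pos _) h2
  omega

/-- Burnside: an abelian Sylow subgroup of a simple group is not self-normalizing -/
theorem not_self_normalizing [IsSimpleGroup G] {p : ℕ} [Fact p.Prime]
    (P : Sylow p G) (hcomm : ∀ x ∈ (P : Subgroup G), ∀ y ∈ (P : Subgroup G), x * y = y * x)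
    (h1 : 1 < Nat.card (P : Subgroup G)) (h2 : Nat.card (P : Subgroup G) < Nat.card G) :
    Nat.card (P : Subgroup G) < Nat.card (Subgroup.normalizer ((P : Subgroup G) : Set G)) := by
  by_contra hnot
  push Not at hnot
  have hle : (P : Subgroup G) ≤ Subgroup.normalizer ((P : Subgroup G) : Set G) :=
    Subgroup.le_normalizer
  have heq : (P : Subgroup G) = Subgroup.normalizer ((P : Subgroup G) : Set G) :=
    Subgroup.eq_of_le_of_card_ge hle hnot
  have hP : Subgroup.normalizer ((P : Subgroup G) : Set G) ≤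
      Subgroup.centralizer ((P : Subgroup G) : Set G) := by
    rw [← heq]
    intro x hx
    rw [Subgroup.mem_centralizer_iff]
    intro y hy
    exact hcomm y hy x hx
  have hc := MonoidHom.ker_transferSylow_isComplement' P hP
  rcases (MonoidHom.normal_ker (MonoidHom.transferSylow P hP)).eq_bot_or_eq_top with hk | hk
  · rw [hk] at hc
    have h3 := Subgroup.isComplement'_bot_left.mp hc
    rw [h3, Subgroup.card_top] at h2
    omega
  · rw [hk] at hc
    have h3 := Subgroup.isComplement'_top_left.mp hc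
    rw [h3, Subgroup.card_bot] at h1
    omega

end general

section char2max

variable {F : Type*} [Field F] [Fintype F] [CharP F 2]

theorem isUni_of_orderOf_two {M : Subgroup (Matrix.ProjectiveSpecialLinearGroup (Fin 2) F)}
    {a : M} (hoa : orderOf a = 2) :
    a ≠ 1 ∧ IsUni (a : Matrix.ProjectiveSpecialLinearGroup (Fin 2) F) := by
  have ha : a ≠ 1 := by
    rintro rfl
    rw [orderOf_one] at hoa
    omega
  refine ⟨ha, ?_⟩
  have h1 : a ^ 2 = 1 := orderOf_dvd_iff_pow_eq_one.mp (dvd_of_eq hoa)
  have h2 : ((a ^ 2 : M) : Matrix.ProjectiveSpecialLinearGroup (Fin 2) F) = ((1 : M) :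
      Matrix.ProjectiveSpecialLinearGroup (Fin 2) F) := congrArg Subtype.val h1
  apply isUni_of_pow 2 (coe_ne_one ha) 1
  exact h2

theorem hTorus_comm (M : Subgroup (Matrix.ProjectiveSpecialLinearGroup (Fin 2) F))
    (c : M) (hc1 : c ≠ 1) : ∀ x ∈ hTorus M c, ∀ y ∈ hTorus M c, x * y = y * x := by
  intro x hx y hy
  apply Subtype.ext
  exact torusOf_comm (coe_ne_one hc1) ((mem_hTorus M c x).mp hx) ((mem_hTorus M c y).mp hy)

/-- the Lie-type data of a simple subgroup of order 60 in characteristic two -/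
theorem sixty_data (M : Subgroup (Matrix.ProjectiveSpecialLinearGroup (Fin 2) F))
    (hc : Nat.card M = 60) (hs : IsSimpleGroup M) :
    ∃ a b : M, a ≠ 1 ∧ IsUni (a : Matrix.ProjectiveSpecialLinearGroup (Fin 2) F) ∧ b ≠ 1 ∧
      ¬ IsUni (b : Matrix.ProjectiveSpecialLinearGroup (Fin 2) F) ∧
      hTorus M b ≤ Subgroup.normalizer ((hTorus M a : Subgroup M) : Set M) ∧
      Nat.card (hTorus M b) * Nat.card (hTorus M a) =
        Nat.card (Subgroup.normalizer ((hTorus M a : Subgroup M) : Set M)) ∧
      Nat.card (hTorus M b) <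
        Nat.card (Subgroup.normalizer ((hTorus M b : Subgroup M) : Set M)) ∧
      Nat.card M = Nat.card (hTorus M a) * (Nat.card (hTorus M a) ^ 2 - 1) ∧
      Nat.card (hTorus M b) + 1 = Nat.card (hTorus M a) := by
  classical
  obtain ⟨a, hoa⟩ := exists_prime_orderOf_dvd_card' (G := M) 2 (by rw [hc]; norm_num)
  obtain ⟨ha, haU⟩ := isUni_of_orderOf_two hoa
  have hcardA : Nat.card (hTorus M a) = 4 :=
    Cfsg.Agent.S0494.sylow_card (p := 2) (k := 2) (m := 15) (hc.trans (by norm_num))
      (by norm_num) (hSylow 2 M a haU)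
  have hltA : Nat.card (hTorus M a) <
      Nat.card (Subgroup.normalizer ((hTorus M a : Subgroup M) : Set M)) :=
    not_self_normalizing (hSylow 2 M a haU) (hTorus_comm M a ha)
      (by rw [hcardA]; norm_num : 1 < Nat.card (hTorus M a))
      (by rw [hcardA, hc]; norm_num : Nat.card (hTorus M a) < Nat.card M)
  obtain ⟨b, hb, hbU, hble, hbcard⟩ := hTorus_U_compl M a ha haU hltA
  have hk2 : 2 ≤ Nat.card (hTorus M b) := (dpartOf 2 M).one_lt_card_M hb
  have hNdvd : Nat.card (Subgroup.normalizer ((hTorus M a : Subgroup M) : Set M)) ∣ Nat.card M :=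
    Subgroup.card_subgroup_dvd_card _
  rw [← hbcard, hcardA, hc] at hNdvd
  have hk15 : Nat.card (hTorus M b) ≤ 15 := by
    have := Nat.le_of_dvd (by norm_num) hNdvd
    omega
  have hNtop : Nat.card (hTorus M b) ≠ 15 := by
    intro h15
    have h1 : Subgroup.normalizer ((hTorus M a : Subgroup M) : Set M) = ⊤ := by
      rw [← Subgroup.card_eq_iff_eq_top, ← hbcard, h15, hcardA, hc]
    rw [Subgroup.normalizer_eq_top_iff] at h1
    rcases h1.eq_bot_or_eq_top with h | h
    · rw [h, Subgroup.card_bot] at hcardA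
      omega
    · rw [h, Subgroup.card_top, hc] at hcardA
      omega
  have hN5 : Nat.card (hTorus M b) ≠ 5 := by
    intro h5
    have hNne : Subgroup.normalizer ((hTorus M a : Subgroup M) : Set M) ≠ ⊤ := by
      intro h
      rw [h, Subgroup.card_top, h5, hcardA, hc] at hbcard
      omega
    have hidx : (Subgroup.normalizer ((hTorus M a : Subgroup M) : Set M)).index = 3 := by
      have h6 := Subgroup.card_mul_index (Subgroup.normalizer ((hTorus M a : Subgroup M) : Set M))
      rw [← hbcard, h5, hcardA, hc] at h6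
      omega
    have h7 := Cfsg.Agent.S0494.card_dvd_factorial_index _ hNne
    rw [hidx, hc] at h7
    revert h7
    decide
  have hk3 : Nat.card (hTorus M b) = 3 := by
    generalize Nat.card (hTorus M b) = k at *
    interval_cases k <;> first | omega | (exfalso; revert hNdvd; decide)
  have hltB : Nat.card (hTorus M b) <
      Nat.card (Subgroup.normalizer ((hTorus M b : Subgroup M) : Set M)) := by
    have hp3 : IsPGroup 3 (hTorus M b) := IsPGroup.of_card (n := 1) (by rw [hk3]; norm_num)
    have hidx : ¬ 3 ∣ (hTorus M b).index := by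
      have h6 := Subgroup.card_mul_index (hTorus M b)
      rw [hk3, hc] at h6
      have : (hTorus M b).index = 20 := by omega
      rw [this]
      norm_num
    exact not_self_normalizing (hp3.toSylow hidx) (hTorus_comm M b hb)
      (by rw [hk3]; norm_num : 1 < Nat.card (hTorus M b))
      (by rw [hk3, hc]; norm_num : Nat.card (hTorus M b) < Nat.card M)
  refine ⟨a, b, ha, haU, hb, hbU, hble, hbcard, hltB, ?_, ?_⟩
  · rw [hcardA, hc]
    norm_num
  · rw [hcardA, hk3]

/-- the Lie-type case of the classification of maximal subgroups in characteristic two -/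
theorem lie_case (M : Subgroup (Matrix.ProjectiveSpecialLinearGroup (Fin 2) F))
    (hM : IsCoatom M) (a b : M)
    (ha : a ≠ 1) (haU : IsUni (a : Matrix.ProjectiveSpecialLinearGroup (Fin 2) F))
    (hb : b ≠ 1) (hbU : ¬ IsUni (b : Matrix.ProjectiveSpecialLinearGroup (Fin 2) F))
    (hle : hTorus M b ≤ Subgroup.normalizer ((hTorus M a : Subgroup M) : Set M))
    (hcardN : Nat.card (hTorus M b) * Nat.card (hTorus M a) =
      Nat.card (Subgroup.normalizer ((hTorus M a : Subgroup M) : Set M)))
    (hlt : Nat.card (hTorus M b) <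
      Nat.card (Subgroup.normalizer ((hTorus M b : Subgroup M) : Set M)))
    (hH : Nat.card M = Nat.card (hTorus M a) * (Nat.card (hTorus M a) ^ 2 - 1))
    (hk : Nat.card (hTorus M b) + 1 = Nat.card (hTorus M a)) :
    ∃ (F₀ : Type) (_ : Field F₀) (_ : Fintype F₀) (r : ℕ), r.Prime ∧ Fintype.card F₀ ≠ 2 ∧
      Fintype.card F = Fintype.card F₀ ^ r ∧
      Nonempty (M ≃* Matrix.ProjectiveSpecialLinearGroup (Fin 2) F₀) := by
  classical
  have hkb : 2 ≤ Nat.card (hTorus M b) := (dpartOf 2 M).one_lt_card_M hb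
  obtain ⟨γ, hstd⟩ := lie_struct M a b 1 ha haU hb hbU hle hcardN hlt (Or.inl rfl)
    (by rw [one_mul]; exact hH) (by rw [one_mul]; exact hk)
  obtain ⟨φ, -⟩ : ∃ φ : M ≃* M.map (MulAut.conj γ).toMonoidHom, True :=
    ⟨M.equivMapOfInjective _ (MulAut.conj γ).injective, trivial⟩
  have hM' : IsCoatom (M.map (MulAut.conj γ).toMonoidHom) :=
    (OrderIso.isCoatom_iff (MulEquiv.mapSubgroup (MulAut.conj γ)) M).mpr hM
  obtain ⟨F₀, i1, i2, r, hr, h2', hcard, ⟨ψ⟩⟩ := lie_coatom_cases _ hM'
    (Nat.card (hTorus M a)) (by omega) hstd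
    (by rw [← Nat.card_congr φ.toEquiv]; exact hH)
  exact ⟨F₀, i1, i2, r, hr, h2', hcard, ⟨φ.trans ψ⟩⟩

/-- maximal subgroups of `PSL₂(F)` in characteristic two -/
theorem max_even (h4 : 4 ≤ Fintype.card F)
    (M : Subgroup (Matrix.ProjectiveSpecialLinearGroup (Fin 2) F)) (hM : IsCoatom M) :
    Nat.card M = Fintype.card F * (Fintype.card F - 1) ∨
    Nonempty (M ≃* DihedralGroup (Fintype.card F - 1)) ∨
    Nonempty (M ≃* DihedralGroup (Fintype.card F + 1)) ∨
    (∃ (F₀ : Type) (_ : Field F₀) (_ : Fintype F₀) (r : ℕ), r.Prime ∧ Fintype.card F₀ ≠ 2 ∧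
        Fintype.card F = Fintype.card F₀ ^ r ∧
        Nonempty (M ≃* Matrix.ProjectiveSpecialLinearGroup (Fin 2) F₀)) := by
  classical
  have h2 : (2 : F) = 0 := CharTwo.two_eq_zero
  have hgcd : Nat.gcd 2 (Fintype.card F - 1) = 1 := (gcd_two_card_sub_one (F := F)).2 h2
  have hsimple : IsSimpleGroup (Matrix.ProjectiveSpecialLinearGroup (Fin 2) F) :=
    Matrix.ProjectiveSpecialLinearGroup.rank_two_simple
      (by rw [Nat.card_eq_fintype_card]; exact h4)
  have hTtop : ∀ x : Matrix.ProjectiveSpecialLinearGroup (Fin 2) F, x ≠ 1 → torusOf x ≠ ⊤ := by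
    intro x hx htop
    obtain ⟨y, z, hyz⟩ := psl2_exists_not_comm (F := F)
    exact hyz (torusOf_comm hx (htop ▸ Subgroup.mem_top y) (htop ▸ Subgroup.mem_top z))
  have hTbot : ∀ x : Matrix.ProjectiveSpecialLinearGroup (Fin 2) F, x ≠ 1 → torusOf x ≠ ⊥ := by
    intro x hx hbot
    have h := self_mem_torusOf x
    rw [hbot, Subgroup.mem_bot] at h
    exact hx h
  have hNtop : ∀ x : Matrix.ProjectiveSpecialLinearGroup (Fin 2) F, x ≠ 1 →
      Subgroup.normalizer ((torusOf x : Subgroup (Matrix.ProjectiveSpecialLinearGroup (Fin 2) F)) :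
        Set (Matrix.ProjectiveSpecialLinearGroup (Fin 2) F)) ≠ ⊤ := by
    intro x hx htop
    rw [Subgroup.normalizer_eq_top_iff] at htop
    rcases htop.eq_bot_or_eq_top with h | h
    · exact hTbot x hx h
    · exact hTtop x hx h
  have hP : ∀ N : Subgroup (Matrix.ProjectiveSpecialLinearGroup (Fin 2) F), M ≤ N → N ≠ ⊤ →
      N = M := fun N hle hne => (hM.le_iff_eq hne).mp hle
  have hMN : ∀ a : M, a ≠ 1 →
      (∀ g : M, (g : Matrix.ProjectiveSpecialLinearGroup (Fin 2) F) * a *
        (g : Matrix.ProjectiveSpecialLinearGroup (Fin 2) F)⁻¹ ∈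
          torusOf (a : Matrix.ProjectiveSpecialLinearGroup (Fin 2) F)) →
      Subgroup.normalizer ((torusOf (a : Matrix.ProjectiveSpecialLinearGroup (Fin 2) F) :
        Subgroup (Matrix.ProjectiveSpecialLinearGroup (Fin 2) F)) :
        Set (Matrix.ProjectiveSpecialLinearGroup (Fin 2) F)) = M := by
    intro a ha h
    apply hP _ _ (hNtop _ (coe_ne_one ha))
    intro g hg
    rw [mem_normalizer_torusOf (coe_ne_one ha)]
    exact h ⟨g, hg⟩
  have hinv : ∀ c : ℕ, Nat.card M = c → 2 ∣ c → ∃ a : M, a ≠ 1 ∧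
      IsUni (a : Matrix.ProjectiveSpecialLinearGroup (Fin 2) F) := by
    intro c hc hdvd
    obtain ⟨a, hoa⟩ := exists_prime_orderOf_dvd_card' (G := M) 2 (by rw [hc]; exact hdvd)
    exact ⟨a, isUni_of_orderOf_two hoa⟩
  have hfin : Fintype M := Fintype.ofFinite M
  have hshape := (dpartOf 2 M).shape
  unfold DPart.Shape at hshape
  rcases hshape with h | ⟨a, ha, haU, h⟩ | ⟨a, ha, haU, h⟩ | ⟨a, ha, haU, h⟩ | ⟨hc, h⟩ |
    ⟨hc, h⟩ | ⟨hc, h⟩ | ⟨a, b, e, ha, haU, hb, hbU, hle, hcardN, hlt, he, hH, hk⟩
  · -- trivial group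
    exfalso
    have hbot : M = ⊥ := Subgroup.eq_bot_of_card_eq M (Fintype.card_eq_nat_card.symm.trans h)
    obtain ⟨y, z, hyz⟩ := psl2_exists_not_comm (F := F)
    have hy : y ≠ 1 := by
      rintro rfl
      simp at hyz
    have h3 := hP (torusOf y) (by rw [hbot]; exact bot_le) (hTtop y hy)
    exact hTbot y hy (h3.trans hbot)
  · -- cyclic torus
    exfalso
    have haU' : ¬ IsUni (a : Matrix.ProjectiveSpecialLinearGroup (Fin 2) F) := haU
    have h' : hTorus M a = ⊤ := h
    have hle : M ≤ torusOf (a : Matrix.ProjectiveSpecialLinearGroup (Fin 2) F) :=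
      Subgroup.subgroupOf_eq_top.mp h'
    have hN := hMN a ha (fun g => by
      have h5 : (g : Matrix.ProjectiveSpecialLinearGroup (Fin 2) F) ∈
          torusOf (a : Matrix.ProjectiveSpecialLinearGroup (Fin 2) F) := hle g.2
      exact mul_mem (mul_mem h5 (self_mem_torusOf _)) (inv_mem h5))
    obtain ⟨g, hg1, hg2⟩ := exists_normalizing_not_mem_char2 (coe_ne_one ha) haU'
    have hgN := (mem_normalizer_torusOf (coe_ne_one ha)).mpr hg1
    rw [hN] at hgN
    exact hg2 (hle hgN)
  · -- dihedral
    right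
    have haU' : ¬ IsUni (a : Matrix.ProjectiveSpecialLinearGroup (Fin 2) F) := haU
    have hcard : 2 * Nat.card (hTorus M a) = Nat.card M := h.trans Fintype.card_eq_nat_card
    have hidx : (hTorus M a).index = 2 := by
      have h5 := Subgroup.card_mul_index (hTorus M a)
      have h6 : 0 < Nat.card (hTorus M a) := Nat.card_pos
      rw [← hcard] at h5
      have h7 : Nat.card (hTorus M a) * (hTorus M a).index = Nat.card (hTorus M a) * 2 := by
        rw [h5, mul_comm]
      exact Nat.eq_of_mul_eq_mul_left h6 h7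
    have hnorm : (hTorus M a).Normal := Subgroup.normal_of_index_eq_two hidx
    have hN := hMN a ha (fun g => by
      have h7 : g ∈ Subgroup.normalizer ((hTorus M a : Subgroup M) : Set M) := by
        rw [Subgroup.normalizer_eq_top_iff.mpr hnorm]
        exact Subgroup.mem_top g
      exact (mem_normalizer_hTorus M ha).mp h7)
    have hTM : torusOf (a : Matrix.ProjectiveSpecialLinearGroup (Fin 2) F) ≤ M :=
      le_of_le_of_eq Subgroup.le_normalizer hN
    have hcT : Nat.card (hTorus M a) =
        Nat.card (torusOf (a : Matrix.ProjectiveSpecialLinearGroup (Fin 2) F)) :=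
      Nat.card_congr (Subgroup.subgroupOfEquivOfLe hTM).toEquiv
    obtain ⟨k, -, ⟨ψ⟩⟩ := recog_dihedral 2 M a ha haU' hcard
    have hk : k = Nat.card (torusOf (a : Matrix.ProjectiveSpecialLinearGroup (Fin 2) F)) := by
      have h8 := Nat.card_congr ψ.toEquiv
      rw [DihedralGroup.nat_card, ← hcard, hcT] at h8
      omega
    rcases card_torusOf_char2 (coe_ne_one ha) haU' with h9 | h9
    · left
      rw [h9] at hk
      subst hk
      exact ⟨ψ⟩
    · right; left
      rw [h9] at hk
      subst hk
      exact ⟨ψ⟩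
  · -- Borel
    left
    have haU' : IsUni (a : Matrix.ProjectiveSpecialLinearGroup (Fin 2) F) := haU
    have h' : Subgroup.normalizer ((hTorus M a : Subgroup M) : Set M) = ⊤ := h
    have hN := hMN a ha (fun g => by
      have h7 : g ∈ Subgroup.normalizer ((hTorus M a : Subgroup M) : Set M) := by
        rw [h']
        exact Subgroup.mem_top g
      exact (mem_normalizer_hTorus M ha).mp h7)
    obtain ⟨Γ, hΓ⟩ := exists_borelP haU'
    have hB0 : borelP Γ = Subgroup.normalizer
        ((torusOf (a : Matrix.ProjectiveSpecialLinearGroup (Fin 2) F) :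
          Subgroup (Matrix.ProjectiveSpecialLinearGroup (Fin 2) F)) :
          Set (Matrix.ProjectiveSpecialLinearGroup (Fin 2) F)) := by
      ext g
      rw [hΓ, mem_normalizer_torusOf (coe_ne_one ha)]
    have hB : borelP Γ = M := hB0.trans hN
    have hcB := card_borelP Γ
    rw [hgcd, mul_one, hB] at hcB
    exact hcB
  · -- order 12
    exfalso
    have hc' : Nat.card M = 12 := Fintype.card_eq_nat_card.symm.trans hc
    obtain ⟨a, ha, haU⟩ := hinv 12 hc' (by norm_num)
    have hcardA : Nat.card (hTorus M a) = 4 :=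
      Cfsg.Agent.S0494.sylow_card (p := 2) (k := 2) (m := 3) (hc'.trans (by norm_num))
        (by norm_num) (hSylow 2 M a haU)
    have hidx : (hTorus M a).index = 3 := by
      have h5 := Subgroup.card_mul_index (hTorus M a)
      rw [hcardA, hc'] at h5
      omega
    obtain ⟨z, hz, hzc⟩ := exists_ne_one_normalCore (hTorus M a) (by rw [hidx, hc']; decide)
    have hzT : z ∈ hTorus M a := by
      have h5 := hzc 1
      rwa [one_mul, inv_one, mul_one] at h5
    have hTz : hTorus M z = hTorus M a := hTorus_eq_of_mem M a z ha hz hzT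
    apply h z hz
    show Subgroup.normalizer ((hTorus M z : Subgroup M) : Set M) = ⊤
    rw [eq_top_iff]
    intro g _
    rw [mem_normalizer_hTorus M hz]
    have h8 := hzc g
    rw [← hTz, mem_hTorus] at h8
    exact h8
  · -- order 24
    exfalso
    have hc' : Nat.card M = 24 := Fintype.card_eq_nat_card.symm.trans hc
    obtain ⟨a, ha, haU⟩ := hinv 24 hc' (by norm_num)
    have hcardA : Nat.card (hTorus M a) = 8 :=
      Cfsg.Agent.S0494.sylow_card (p := 2) (k := 3) (m := 3) (hc'.trans (by norm_num))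
        (by norm_num) (hSylow 2 M a haU)
    have h9 : Nat.card (hTorus M a) ≤ 4 := h a ha
    omega
  · -- order 60
    right; right; right
    obtain ⟨a, b, ha, haU, hb, hbU, hle, hcardN, hlt, hH, hk⟩ :=
      sixty_data M (Fintype.card_eq_nat_card.symm.trans hc) h
    exact lie_case M hM a b ha haU hb hbU hle hcardN hlt hH hk
  · -- Lie type
    right; right; right
    have haU' : IsUni (a : Matrix.ProjectiveSpecialLinearGroup (Fin 2) F) := haU
    have hbU' : ¬ IsUni (b : Matrix.ProjectiveSpecialLinearGroup (Fin 2) F) := hbU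
    have hle' : hTorus M b ≤ Subgroup.normalizer ((hTorus M a : Subgroup M) : Set M) := hle
    have hcardN' : Nat.card (hTorus M b) * Nat.card (hTorus M a) =
        Nat.card (Subgroup.normalizer ((hTorus M a : Subgroup M) : Set M)) := hcardN
    have hlt' : Nat.card (hTorus M b) <
        Nat.card (Subgroup.normalizer ((hTorus M b : Subgroup M) : Set M)) := hlt
    have hH' : e * Nat.card M = Nat.card (hTorus M a) * (Nat.card (hTorus M a) ^ 2 - 1) := by
      have h5 : Nat.card M = Fintype.card M := Fintype.card_eq_nat_card.symm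
      rw [h5]
      exact hH
    have hk' : e * Nat.card (hTorus M b) + 1 = Nat.card (hTorus M a) := hk
    obtain ⟨n, hn⟩ := IsPGroup.exists_card_eq (hSylow 2 M a haU').isPGroup'
    have hn' : Nat.card (hTorus M a) = 2 ^ n := hn
    have hA2 : 2 ≤ Nat.card (hTorus M a) := (dpartOf 2 M).one_lt_card_M ha
    have he1 : e = 1 := by
      rcases he with rfl | rfl
      · rfl
      · exfalso
        have hn0 : n ≠ 0 := by
          rintro rfl
          rw [pow_zero] at hn'
          omega
        obtain ⟨n', rfl⟩ : ∃ n', n = n' + 1 := ⟨n - 1, by omega⟩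
        rw [hn', pow_succ] at hk'
        generalize 2 ^ n' = t at hk'
        omega
    subst he1
    rw [one_mul] at hH' hk'
    exact lie_case M hM a b ha haU' hb hbU' hle' hcardN' hlt' hH' hk'

end char2max

end Cfsg.Agent.Lib.Helper98
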