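import Mathlib
import Cfsg.Agent.S0799
import Cfsg.Agent.Lib.Helper41.PSL2Order
import Cfsg.Agent.Lib.Helper41.PSL2Class
import Cfsg.Agent.Lib.Helper59.SubfieldPSL
import Cfsg.Agent.Lib.Helper86.SimpleCrit

set_option autoImplicit false

namespace Cfsg.Agent.Lib.Helper98

open Matrix Cfsg.Agent.Lib.Helper41

section noncomm

variable {K : Type*} [Field K]

/-- the upper unitriangular element -/
def pmU : Matrix.SpecialLinearGroup (Fin 2) K := ⟨!![1, 1; 0, 1], by simp [Matrix.det_fin_two]⟩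

/-- the lower unitriangular element -/
def pmL : Matrix.SpecialLinearGroup (Fin 2) K := ⟨!![1, 0; 1, 1], by simp [Matrix.det_fin_two]⟩

theorem pmU_coe : (pmU : Matrix.SpecialLinearGroup (Fin 2) K).1 = !![1, 1; 0, 1] := rfl

theorem pmL_coe : (pmL : Matrix.SpecialLinearGroup (Fin 2) K).1 = !![1, 0; 1, 1] := rfl

theorem pmU_pow (n : ℕ) :
    ((pmU : Matrix.SpecialLinearGroup (Fin 2) K) ^ n).1 = !![1, (n : K); 0, 1] := by
  induction n with
  | zero => simp [Matrix.one_fin_two]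
  | succ n ih =>
    rw [pow_succ, Matrix.SpecialLinearGroup.coe_mul, ih, pmU_coe, Matrix.mul_fin_two]
    ext i j
    fin_cases i <;> fin_cases j <;> simp
    exact add_comm _ _

theorem pmL_pow (n : ℕ) :
    ((pmL : Matrix.SpecialLinearGroup (Fin 2) K) ^ n).1 = !![1, 0; (n : K), 1] := by
  induction n with
  | zero => simp [Matrix.one_fin_two]
  | succ n ih =>
    rw [pow_succ, Matrix.SpecialLinearGroup.coe_mul, ih, pmL_coe, Matrix.mul_fin_two]
    ext i j
    fin_cases i <;> fin_cases j <;> simp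

/-- two non-commuting elements of order dividing `p` in `PSL₂(K)` -/
theorem exists_noncomm_psl2 (p : ℕ) [CharP K p] :
    ∃ x y : Matrix.ProjectiveSpecialLinearGroup (Fin 2) K,
      x ^ p = 1 ∧ y ^ p = 1 ∧ x * y ≠ y * x := by
  refine ⟨QuotientGroup.mk pmU, QuotientGroup.mk pmL, ?_, ?_, ?_⟩
  · rw [← QuotientGroup.mk_pow]
    have h : (pmU : Matrix.SpecialLinearGroup (Fin 2) K) ^ p = 1 := by
      apply Subtype.ext
      rw [pmU_pow, CharP.cast_eq_zero K p]
      simp [Matrix.one_fin_two]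
    rw [h]
    rfl
  · rw [← QuotientGroup.mk_pow]
    have h : (pmL : Matrix.SpecialLinearGroup (Fin 2) K) ^ p = 1 := by
      apply Subtype.ext
      rw [pmL_pow, CharP.cast_eq_zero K p]
      simp [Matrix.one_fin_two]
    rw [h]
    rfl
  · intro h
    rw [← QuotientGroup.mk_mul, ← QuotientGroup.mk_mul, psl2_mk_eq_iff] at h
    rw [Matrix.SpecialLinearGroup.coe_mul, Matrix.SpecialLinearGroup.coe_mul, pmU_coe, pmL_coe,
      Matrix.mul_fin_two, Matrix.mul_fin_two] at h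
    rcases h with h | h
    · have h0 := congrFun (congrFun h 0) 0
      simp at h0
    · have h0 := congrFun (congrFun h 0) 0
      have h1 := congrFun (congrFun h 0) 1
      simp at h0 h1
      have h3 : (1 : K) = 0 := by linear_combination h0 - h1
      exact one_ne_zero h3

/-- two non-commuting elements of order dividing `p` in `PGL₂(K)` -/
theorem exists_noncomm_pgl2 (p : ℕ) [CharP K p] :
    ∃ x y : Matrix.ProjGenLinGroup (Fin 2) K,
      x ^ p = 1 ∧ y ^ p = 1 ∧ x * y ≠ y * x := by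
  obtain ⟨x, y, hx, hy, hxy⟩ := exists_noncomm_psl2 (K := K) p
  refine ⟨Matrix.ProjectiveSpecialLinearGroup.toPGL x, Matrix.ProjectiveSpecialLinearGroup.toPGL y,
    by rw [← map_pow, hx, map_one], by rw [← map_pow, hy, map_one], ?_⟩
  intro h
  rw [← map_mul, ← map_mul] at h
  exact hxy (Matrix.ProjectiveSpecialLinearGroup.toPGL_injective h)

end noncomm

theorem false_of_hom_comm {G A : Type*} [Group G] [Group A] (M : Subgroup G) {x y : G}
    (hx : x ∈ M) (hy : y ∈ M) (hxy : x * y ≠ y * x) (φ : M →* A) (hφ : Function.Injective φ)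
    (hc : φ ⟨x, hx⟩ * φ ⟨y, hy⟩ = φ ⟨y, hy⟩ * φ ⟨x, hx⟩) : False := by
  rw [← map_mul, ← map_mul] at hc
  exact hxy (congrArg Subtype.val (hφ hc))

/-- a subgroup of `PSL₂(F)` (odd characteristic `p`) with two non-commuting elements of order
dividing `p` is of type `A₄`, `S₄`, `A₅` or of Lie type in Dickson's list -/
theorem dickson_of_noncomm {F : Type*} [Field F] [Fintype F] (p : ℕ) [Fact p.Prime] [CharP F p]
    (hp2 : p ≠ 2) (M : Subgroup (Matrix.ProjectiveSpecialLinearGroup (Fin 2) F))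
    (x y : Matrix.ProjectiveSpecialLinearGroup (Fin 2) F) (hx : x ∈ M) (hy : y ∈ M)
    (hxp : x ^ p = 1) (hyp : y ^ p = 1) (hxy : x * y ≠ y * x) :
    Nonempty (M ≃* alternatingGroup (Fin 4)) ∨ Nonempty (M ≃* Equiv.Perm (Fin 4)) ∨
      Nonempty (M ≃* alternatingGroup (Fin 5)) ∨
      (∃ (K : Type) (_ : Field K) (_ : Fintype K) (m : ℕ), Fintype.card K ^ m = Fintype.card F ∧
        (Nonempty (M ≃* Matrix.ProjectiveSpecialLinearGroup (Fin 2) K) ∨
          Nonempty (M ≃* Matrix.ProjGenLinGroup (Fin 2) K))) := by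
  have hp : p.Prime := Fact.out
  have hxM : (⟨x, hx⟩ : M) ^ p = 1 := Subtype.ext (by rw [Subgroup.coe_pow]; exact hxp)
  have hyM : (⟨y, hy⟩ : M) ^ p = 1 := Subtype.ext (by rw [Subgroup.coe_pow]; exact hyp)
  rcases Cfsg.Agent.S0799.result (F := F) (q := Fintype.card F) rfl p M with
    ⟨k, -, ⟨hc, -⟩ | ⟨⟨φ⟩⟩⟩ | ⟨P, K', hK', ⟨ψ⟩⟩ | h
  · exfalso
    obtain ⟨g, hg⟩ := hc.exists_generator
    obtain ⟨a, ha⟩ := Subgroup.mem_zpowers_iff.mp (hg ⟨x, hx⟩)
    obtain ⟨b, hb⟩ := Subgroup.mem_zpowers_iff.mp (hg ⟨y, hy⟩)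
    apply false_of_hom_comm M hx hy hxy (MonoidHom.id M) (fun _ _ h => h)
    show (⟨x, hx⟩ : M) * ⟨y, hy⟩ = ⟨y, hy⟩ * ⟨x, hx⟩
    rw [← ha, ← hb, ← _root_.zpow_add, ← _root_.zpow_add, add_comm]
  · exfalso
    have key : ∀ a : DihedralGroup k, a ^ p = 1 → ∃ i, a = DihedralGroup.r i := by
      intro a ha
      cases a with
      | r i => exact ⟨i, rfl⟩
      | sr i =>
        exfalso
        obtain ⟨t, ht⟩ := hp.odd_of_ne_two hp2
        rw [ht, pow_succ, pow_mul, pow_two, DihedralGroup.sr_mul_self, one_pow, one_mul,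
          DihedralGroup.one_def] at ha
        cases ha
    obtain ⟨i, hi⟩ := key (φ ⟨x, hx⟩) (by rw [← map_pow, hxM, map_one])
    obtain ⟨j, hj⟩ := key (φ ⟨y, hy⟩) (by rw [← map_pow, hyM, map_one])
    apply false_of_hom_comm M hx hy hxy φ.toMonoidHom φ.injective
    show φ ⟨x, hx⟩ * φ ⟨y, hy⟩ = φ ⟨y, hy⟩ * φ ⟨x, hx⟩
    rw [hi, hj, DihedralGroup.r_mul_r, DihedralGroup.r_mul_r, add_comm]
  · exfalso
    obtain ⟨a, haU, hP⟩ := sylow_eq_torusOf p P
    have key : ∀ z : M, z ^ p = 1 →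
        ((ψ z : K') : Matrix.ProjectiveSpecialLinearGroup (Fin 2) F) ∈ torusOf a := by
      intro z hz
      have h1 : ((ψ z : K') : Matrix.ProjectiveSpecialLinearGroup (Fin 2) F) ^ p = 1 := by
        rw [← Subgroup.coe_pow, ← map_pow, hz, map_one]
        rfl
      have h2 := orderOf_dvd_of_pow_eq_one h1
      rw [← hP]
      rcases (Nat.dvd_prime hp).mp h2 with h3 | h3
      · exact Cfsg.Agent.Lib.Helper86.mem_sylow_of_mem_normalizer P (hK' (ψ z).2) (k := 0)
          (by rw [h3, pow_zero])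
      · exact Cfsg.Agent.Lib.Helper86.mem_sylow_of_mem_normalizer P (hK' (ψ z).2) (k := 1)
          (by rw [h3, pow_one])
    have hc := torusOf_comm haU.1 (key ⟨x, hx⟩ hxM) (key ⟨y, hy⟩ hyM)
    apply false_of_hom_comm M hx hy hxy ψ.toMonoidHom ψ.injective
    show ψ ⟨x, hx⟩ * ψ ⟨y, hy⟩ = ψ ⟨y, hy⟩ * ψ ⟨x, hx⟩
    exact Subtype.ext hc
  · exact h

/-- `p^{2f} - 1` divides `2 (p^{2j} - 1)` only if `f ∣ j` -/
theorem dvd_of_pow_sub_one_dvd {p f j : ℕ} (hp : 3 ≤ p) (hf : f ≠ 0)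
    (h : (p ^ f) ^ 2 - 1 ∣ 2 * ((p ^ j) ^ 2 - 1)) : f ∣ j := by
  by_contra hnd
  have e1 : (p ^ f) ^ 2 = p ^ (2 * f) := by rw [← pow_mul, mul_comm]
  have e2 : (p ^ j) ^ 2 = p ^ (2 * j) := by rw [← pow_mul, mul_comm]
  rw [e1, e2] at h
  have h5 : p ^ (2 * f) - 1 ∣ 2 * (p ^ (2 * Nat.gcd f j) - 1) := by
    have := Nat.dvd_gcd h (dvd_mul_left (p ^ (2 * f) - 1) 2)
    rwa [Nat.gcd_mul_left, Nat.pow_sub_one_gcd_pow_sub_one, Nat.gcd_mul_left, Nat.gcd_comm j f]
      at this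
  have hgf : Nat.gcd f j ∣ f := Nat.gcd_dvd_left f j
  obtain ⟨s, hs⟩ := hgf
  have hgpos : 0 < Nat.gcd f j := Nat.gcd_pos_of_pos_left j (Nat.pos_of_ne_zero hf)
  have hs2 : 2 ≤ s := by
    by_contra hlt
    push Not at hlt
    interval_cases s
    · exact hf (by rw [hs, mul_zero])
    · apply hnd
      rw [mul_one] at hs
      rw [hs]
      exact Nat.gcd_dvd_right _ j
  have hle : 2 * Nat.gcd f j ≤ f := by
    calc 2 * Nat.gcd f j = Nat.gcd f j * 2 := mul_comm _ _
      _ ≤ Nat.gcd f j * s := Nat.mul_le_mul_left _ hs2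
      _ = f := hs.symm
  have hX : 3 ≤ p ^ f := le_trans hp (Nat.le_self_pow hf p)
  have hY : p ^ (2 * Nat.gcd f j) ≤ p ^ f := Nat.pow_le_pow_right (by omega) hle
  have hY1 : 3 ≤ p ^ (2 * Nat.gcd f j) :=
    le_trans hp (Nat.le_self_pow (by omega) p)
  have hXX : p ^ (2 * f) = p ^ f * p ^ f := by rw [two_mul, pow_add]
  have h3X : 3 * p ^ f ≤ p ^ f * p ^ f := Nat.mul_le_mul_right _ hX
  have hle2 := Nat.le_of_dvd (by omega) h5
  rw [hXX] at hle2
  omega

/-- the numerical core of the Lie-type case -/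
theorem subfield_numerics {p : ℕ} (hp : p.Prime) (hp2 : p ≠ 2) {n q q' r m : ℕ} (hr : r.Prime)
    (hq : 1 < q) (hQ : q ^ r = p ^ n) (hq' : q' ^ m = p ^ n) (hm : m ≠ 0)
    (hdvd : q ^ 2 - 1 ∣ 2 * (q' * (q' ^ 2 - 1))) :
    (q' = q ∧ m = r) ∨ (q' = q ^ r ∧ m = 1) := by
  obtain ⟨f, -, rfl⟩ := (Nat.dvd_prime_pow hp).mp (hQ ▸ dvd_pow_self q hr.ne_zero)
  obtain ⟨j, -, rfl⟩ := (Nat.dvd_prime_pow hp).mp (hq' ▸ dvd_pow_self q' hm)
  have hf : f ≠ 0 := by
    rintro rfl
    simp at hq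
  have h1 : f * r = n := Nat.pow_right_injective hp.two_le (by
    show p ^ (f * r) = p ^ n
    rw [pow_mul]; exact hQ)
  have h2 : j * m = n := Nat.pow_right_injective hp.two_le (by
    show p ^ (j * m) = p ^ n
    rw [pow_mul]; exact hq')
  have hp3 : 3 ≤ p := by
    have := hp.two_le
    omega
  have hco : Nat.Coprime ((p ^ f) ^ 2 - 1) (p ^ j) := by
    apply Nat.Coprime.pow_right
    rw [Nat.coprime_comm, Nat.Prime.coprime_iff_not_dvd hp]
    intro hd
    have h3 : p ∣ (p ^ f) ^ 2 := dvd_pow (dvd_pow_self p hf) two_ne_zero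
    have h1le : 1 ≤ (p ^ f) ^ 2 := Nat.one_le_pow _ _ (Nat.pow_pos hp.pos)
    have h4 := Nat.dvd_sub h3 hd
    rw [Nat.sub_sub_self h1le] at h4
    exact hp.one_lt.ne' (Nat.dvd_one.mp h4)
  have h3 : (p ^ f) ^ 2 - 1 ∣ 2 * ((p ^ j) ^ 2 - 1) := by
    have h4 : (p ^ f) ^ 2 - 1 ∣ p ^ j * (2 * ((p ^ j) ^ 2 - 1)) := by
      have e : p ^ j * (2 * ((p ^ j) ^ 2 - 1)) = 2 * (p ^ j * ((p ^ j) ^ 2 - 1)) := by ring
      rw [e]; exact hdvd
    exact hco.dvd_of_dvd_mul_left h4
  obtain ⟨t, rfl⟩ := dvd_of_pow_sub_one_dvd hp3 hf h3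
  have h5 : t * m = r := by
    apply Nat.eq_of_mul_eq_mul_left (Nat.pos_of_ne_zero hf)
    rw [← mul_assoc, h2, h1]
  rcases (Nat.dvd_prime hr).mp ⟨m, h5.symm⟩ with rfl | rfl
  · left
    rw [one_mul] at h5
    exact ⟨by rw [mul_one], h5⟩
  · right
    have hm1 : m = 1 := Nat.eq_of_mul_eq_mul_left hr.pos (h5.trans (mul_one t).symm)
    exact ⟨by rw [pow_mul], hm1⟩

theorem nine_pow_mod_sixteen (r : ℕ) (hr : Odd r) : 9 ^ r % 16 = 9 := by
  obtain ⟨k, rfl⟩ := hr
  rw [pow_succ, pow_mul, Nat.mul_mod, Nat.pow_mod]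
  norm_num

theorem nine_pow_mod_five (r : ℕ) (hr : Odd r) : 9 ^ r % 5 = 4 := by
  obtain ⟨k, rfl⟩ := hr
  rw [pow_succ, pow_mul, Nat.mul_mod, Nat.pow_mod]
  norm_num

theorem gcd_two_sub_one_of_odd {a : ℕ} (ha : Odd a) : Nat.gcd 2 (a - 1) = 2 := by
  obtain ⟨k, rfl⟩ := ha
  rw [Nat.add_sub_cancel]
  simp

theorem card_alt4 : Nat.card (alternatingGroup (Fin 4)) = 12 := by
  rw [Nat.card_eq_fintype_card]
  have h := two_mul_card_alternatingGroup (α := Fin 4)
  rw [Fintype.card_perm, Fintype.card_fin] at h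
  have e : Nat.factorial 4 = 24 := by decide
  omega

theorem card_alt5 : Nat.card (alternatingGroup (Fin 5)) = 60 := by
  rw [Nat.card_eq_fintype_card]
  have h := two_mul_card_alternatingGroup (α := Fin 5)
  rw [Fintype.card_perm, Fintype.card_fin] at h
  have e : Nat.factorial 5 = 120 := by decide
  omega

theorem card_sym4 : Nat.card (Equiv.Perm (Fin 4)) = 24 := by
  rw [Nat.card_eq_fintype_card, Fintype.card_perm, Fintype.card_fin]
  decide


/-- a subgroup of `PSL₂(F)`, `|F| = q^r` odd, `r` prime, of order `q(q²-1)/δ` containing two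
non-commuting elements of order dividing `p` is maximal (`δ = 2`, `r` odd: `PSL₂(q)`;
`δ = 1`, `r = 2`: `PGL₂(q)`) -/
theorem isCoatom_subfield {F : Type*} [Field F] [Fintype F] (p : ℕ) [Fact p.Prime] [CharP F p]
    (hp2 : p ≠ 2) (q r δ : ℕ) (hr : r.Prime) (hq : 1 < q) (hF : Fintype.card F = q ^ r)
    (H : Subgroup (Matrix.ProjectiveSpecialLinearGroup (Fin 2) F))
    (hδ : (δ = 2 ∧ r ≠ 2) ∨ (δ = 1 ∧ r = 2))
    (hcard : δ * Nat.card H = q * (q ^ 2 - 1))
    (hxy : ∃ x ∈ H, ∃ y ∈ H, x ^ p = 1 ∧ y ^ p = 1 ∧ x * y ≠ y * x) : IsCoatom H := by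
  classical
  have hp : p.Prime := Fact.out
  obtain ⟨n, -, hn⟩ := FiniteField.card F p
  have hFodd : Odd (Fintype.card F) := by
    rw [hn]; exact (hp.odd_of_ne_two hp2).pow
  have hqodd : Odd q := by
    have h0 := hFodd
    rw [hF] at h0
    exact (Nat.odd_pow_iff hr.ne_zero).mp h0
  have hq3 : 3 ≤ q := by
    obtain ⟨k, hk⟩ := hqodd
    omega
  have hG : Nat.card (Matrix.ProjectiveSpecialLinearGroup (Fin 2) F) * 2 =
      q ^ r * ((q ^ r) ^ 2 - 1) := by
    have h := card_psl2_mul_gcd (F := F)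
    rw [gcd_two_sub_one_of_odd hFodd, hF] at h
    exact h
  have hGpos : 0 < Nat.card (Matrix.ProjectiveSpecialLinearGroup (Fin 2) F) := Nat.card_pos
  have hδ12 : δ = 1 ∨ δ = 2 := by
    rcases hδ with ⟨h, -⟩ | ⟨h, -⟩
    · exact Or.inr h
    · exact Or.inl h
  have hqQ : q ^ 2 ≤ q ^ r := Nat.pow_le_pow_right (by omega) hr.two_le
  have hA24 : 24 ≤ q * (q ^ 2 - 1) := by
    have h9 : 3 ^ 2 ≤ q ^ 2 := Nat.pow_le_pow_left hq3 2
    calc 24 = 3 * 8 := rfl
      _ ≤ q * (q ^ 2 - 1) := Nat.mul_le_mul hq3 (by omega)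
  have hB : 3 * (q * (q ^ 2 - 1)) ≤ q ^ r * ((q ^ r) ^ 2 - 1) := by
    have h1 : 3 * q ≤ q ^ r := by
      calc 3 * q ≤ q * q := Nat.mul_le_mul_right q hq3
        _ = q ^ 2 := (sq q).symm
        _ ≤ q ^ r := hqQ
    have h2 : q ≤ q ^ r := Nat.le_self_pow hr.ne_zero q
    have h3 : q ^ 2 - 1 ≤ (q ^ r) ^ 2 - 1 := Nat.sub_le_sub_right (Nat.pow_le_pow_left h2 2) 1
    calc 3 * (q * (q ^ 2 - 1)) = (3 * q) * (q ^ 2 - 1) := by ring
      _ ≤ q ^ r * ((q ^ r) ^ 2 - 1) := Nat.mul_le_mul h1 h3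
  constructor
  · intro htop
    rw [htop, Subgroup.card_top] at hcard
    rcases hδ12 with rfl | rfl <;> omega
  · intro M hHM
    have hle : H ≤ M := hHM.le
    obtain ⟨x, hx, y, hy, hxp, hyp, hne⟩ := hxy
    obtain ⟨c, hc⟩ := Subgroup.card_dvd_of_le hle
    have hMpos : 0 < Nat.card M := Nat.card_pos
    have hHpos : 0 < Nat.card H := Nat.card_pos
    have hc2 : 2 ≤ c := by
      by_contra hlt
      push Not at hlt
      interval_cases c
      · omega
      · rw [mul_one] at hc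
        exact hHM.ne (Subgroup.eq_of_le_of_card_ge hle hc.le)
    have hMG : Nat.card M ∣ Nat.card (Matrix.ProjectiveSpecialLinearGroup (Fin 2) F) :=
      Subgroup.card_subgroup_dvd_card M
    have hsmall : (Nat.card M = 12 ∨ Nat.card M = 24 ∨ Nat.card M = 60) →
        δ = 2 ∧ q = 3 ∧ (Nat.card M = 24 ∨ Nat.card M = 60) := by
      intro hM
      have hq4 : q = 3 ∨ 5 ≤ q := by
        obtain ⟨k, hk⟩ := hqodd
        omega
      rcases hq4 with rfl | hq5
      · have e24 : 3 * (3 ^ 2 - 1) = 24 := by norm_num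
        rw [e24] at hcard
        rcases hδ12 with rfl | rfl
        · have hH24 : Nat.card H = 24 := by omega
          rw [hH24] at hc
          omega
        · have hH12 : Nat.card H = 12 := by omega
          rw [hH12] at hc
          refine ⟨rfl, rfl, ?_⟩
          omega
      · exfalso
        have h120 : 120 ≤ q * (q ^ 2 - 1) := by
          have h25 : 5 ^ 2 ≤ q ^ 2 := Nat.pow_le_pow_left hq5 2
          calc 120 = 5 * 24 := rfl
            _ ≤ q * (q ^ 2 - 1) := Nat.mul_le_mul hq5 (by omega)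
        have h60 : 60 ≤ Nat.card H := by
          rcases hδ12 with rfl | rfl <;> omega
        have h120' : 120 ≤ Nat.card H * c := by
          calc 120 = 60 * 2 := rfl
            _ ≤ Nat.card H * c := Nat.mul_le_mul h60 hc2
        omega
    have hexc : (Nat.card M = 12 ∨ Nat.card M = 24 ∨ Nat.card M = 60) → False := by
      intro hM
      obtain ⟨hd, rfl, hM'⟩ := hsmall hM
      have hrodd : Odd r := by
        rcases hδ with ⟨-, hne⟩ | ⟨h1, -⟩
        · exact hr.odd_of_ne_two hne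
        · omega
      have e9 : ((3 : ℕ) ^ r) ^ 2 = 9 ^ r := by
        rw [← pow_mul, mul_comm, pow_mul]
        norm_num
      rw [e9] at hG
      have h16 := nine_pow_mod_sixteen r hrodd
      have h5 := nine_pow_mod_five r hrodd
      obtain ⟨d, hd'⟩ := hMG
      rw [hd'] at hG
      rcases hM' with h24 | h60
      · rw [h24] at hG
        have hdv : 16 ∣ 3 ^ r * (9 ^ r - 1) := ⟨3 * d, by rw [← hG]; ring⟩
        have hco : Nat.Coprime 16 (3 ^ r) := Nat.Coprime.pow_right r (by decide)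
        have := hco.dvd_of_dvd_mul_left hdv
        omega
      · rw [h60] at hG
        have hdv : 5 ∣ 3 ^ r * (9 ^ r - 1) := ⟨24 * d, by rw [← hG]; ring⟩
        have hco : Nat.Coprime 5 (3 ^ r) := Nat.Coprime.pow_right r (by decide)
        have := hco.dvd_of_dvd_mul_left hdv
        omega
    rcases dickson_of_noncomm p hp2 M x y (hle hx) (hle hy) hxp hyp hne with
      ⟨⟨e⟩⟩ | ⟨⟨e⟩⟩ | ⟨⟨e⟩⟩ | ⟨K', _, _, m, hK', h⟩
    · exact (hexc (Or.inl ((Nat.card_congr e.toEquiv).trans card_alt4))).elim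
    · exact (hexc (Or.inr (Or.inl ((Nat.card_congr e.toEquiv).trans card_sym4)))).elim
    · exact (hexc (Or.inr (Or.inr ((Nat.card_congr e.toEquiv).trans card_alt5)))).elim
    · have hm : m ≠ 0 := by
        rintro rfl
        rw [pow_zero] at hK'
        have := Fintype.one_lt_card (α := F)
        omega
      have hq'odd : Odd (Fintype.card K') := by
        have h0 := hFodd
        rw [← hK'] at h0
        exact (Nat.odd_pow_iff hm).mp h0
      have hMcard : ∃ e' : ℕ, (e' = 1 ∨ e' = 2) ∧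
          e' * Nat.card M = Fintype.card K' * (Fintype.card K' ^ 2 - 1) ∧
          (e' = 1 → Nonempty (M ≃* Matrix.ProjGenLinGroup (Fin 2) K')) := by
        rcases h with ⟨⟨e⟩⟩ | ⟨⟨e⟩⟩
        · refine ⟨2, Or.inr rfl, ?_, by norm_num⟩
          have h := card_psl2_mul_gcd (F := K')
          rw [gcd_two_sub_one_of_odd hq'odd] at h
          rw [Nat.card_congr e.toEquiv, mul_comm]
          exact h
        · refine ⟨1, Or.inl rfl, ?_, fun _ => ⟨e⟩⟩
          rw [Nat.card_congr e.toEquiv, one_mul]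
          exact Cfsg.Agent.Lib.Helper59.card_pgl2
      obtain ⟨e', he', hM', hpgl⟩ := hMcard
      have hdv : q ^ 2 - 1 ∣ 2 * (Fintype.card K' * (Fintype.card K' ^ 2 - 1)) := by
        rw [← hM', hc]
        rcases hδ12 with rfl | rfl
        · rw [one_mul] at hcard
          rw [hcard]
          exact ⟨2 * e' * c * q, by ring⟩
        · refine ⟨e' * c * q, ?_⟩
          calc 2 * (e' * (Nat.card H * c)) = e' * c * (2 * Nat.card H) := by ring
            _ = e' * c * (q * (q ^ 2 - 1)) := by rw [hcard]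
            _ = (q ^ 2 - 1) * (e' * c * q) := by ring
      rcases subfield_numerics hp hp2 hr hq (hF.symm.trans hn) (hK'.trans hn) hm hdv with
        ⟨h1, h2⟩ | ⟨h1, h2⟩
      · exfalso
        rw [h1] at hM'
        rcases he' with rfl | rfl
        · obtain ⟨e⟩ := hpgl rfl
          have hev := Cfsg.Agent.Lib.Helper59.even_of_pgl2_subgroup hFodd m hK' M e
          rw [h2] at hev
          have hr2 : r = 2 := (Nat.Prime.even_iff hr).mp hev
          rcases hδ with ⟨hd, hne⟩ | ⟨hd, -⟩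
          · exact hne hr2
          · subst hd
            rw [one_mul] at hM' hcard
            rw [← hcard] at hM'
            rw [hM'] at hc
            have h4 : Nat.card H * 1 = Nat.card H * c := by rw [mul_one]; exact hc
            have h5 := Nat.eq_of_mul_eq_mul_left hHpos h4
            omega
        · have h3 : 2 * (Nat.card H * c) = δ * Nat.card H := by rw [← hc, hM', hcard]
          have h4 : Nat.card H * (2 * c) = Nat.card H * δ := by
            rw [mul_comm _ δ, ← h3]; ring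
          have h5 := Nat.eq_of_mul_eq_mul_left hHpos h4
          rcases hδ12 with rfl | rfl <;> omega
      · rw [h1, ← hG] at hM'
        have hMleG : Nat.card M ≤ Nat.card (Matrix.ProjectiveSpecialLinearGroup (Fin 2) F) :=
          Nat.le_of_dvd hGpos hMG
        rcases he' with rfl | rfl
        · exfalso
          omega
        · have hMG' : Nat.card M = Nat.card (Matrix.ProjectiveSpecialLinearGroup (Fin 2) F) := by
            omega
          exact (Subgroup.card_eq_iff_eq_top M).mp hMG'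

end Cfsg.Agent.Lib.Helper98
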