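import Mathlib
import Cfsg.Agent.Lib.Helper8.PSUOut
import Cfsg.Agent.Lib.Helper43.AutSp4.Core
import Cfsg.Agent.Lib.Helper43.AutSp4.Balance2

set_option autoImplicit false

/-!
# Local balance for `PSU_n(q)`: field automorphisms of odd prime order

If `p` divides the number of fixed points of the field automorphism `fU σ` of odd prime order
`p`, then the centralizer of `fU σ` (in any group of automorphisms containing the inner ones)
has no non-trivial normal `p'`-subgroup.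
-/

namespace Cfsg.Agent.Lib.Helper98.PSUBalField

open Matrix Cfsg.Agent.Lib.Helper43.AutPSLn Cfsg.Agent.Lib.Helper43.FieldAut
  Cfsg.Agent.Lib.Helper43.AutSp4 Cfsg.Agent.Lib.Helper8 Cfsg.Agent.Lib.Helper45

open PSUSplit PSUField

section basic

variable {n : ℕ} {F : Type*} [Field F] [Fintype F] {q : ℕ}

local notation "Mx" => Matrix (Fin n) (Fin n) F
local notation "SLn" => Matrix.SpecialLinearGroup (Fin n) F
local notation "GLn" => GL (Fin n) F

/-- `suGU` as a homomorphism. -/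
def suGUhom (n : ℕ) (F : Type*) [Field F] [Fintype F] (q : ℕ) :
    ↥(Cfsg.SU n F q) →* ↥(Cfsg.GU n F q) where
  toFun := suGU
  map_one' := Subtype.ext (map_one _)
  map_mul' _ _ := Subtype.ext (map_mul _ _ _)

theorem suGUhom_apply (s : ↥(Cfsg.SU n F q)) : suGUhom n F q s = suGU s := rfl

/-- Central elements of `SU_n` are scalar. -/
theorem su_center_scalar (hF : Fintype.card F = q ^ 2) (hn : 3 ≤ n) (h32 : ¬ (n = 3 ∧ q = 2))
    (s : ↥(Cfsg.SU n F q)) (hs : s ∈ Subgroup.center ↥(Cfsg.SU n F q)) :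
    ∃ c : Fˣ, ((s : SLn) : Mx) = (c : F) • (1 : Mx) := by
  have h1 : (cV (suGU s) : MulAut (Cfsg.PSU n F q)) = 1 := by
    rw [cV_suGU]
    have : (QuotientGroup.mk s : Cfsg.PSU n F q) = 1 := (QuotientGroup.eq_one_iff s).mpr hs
    rw [this, map_one]
  rw [cV_apply, PSUAut.cU_eq_one_iff hF hn h32] at h1
  exact h1

/-- Scalar elements of `SU_n` are central. -/
theorem su_scalar_center (s : ↥(Cfsg.SU n F q)) (c : F)
    (hs : ((s : SLn) : Mx) = c • (1 : Mx)) : s ∈ Subgroup.center ↥(Cfsg.SU n F q) := by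
  rw [Subgroup.mem_center_iff]
  intro t
  apply Subtype.ext
  apply Subtype.ext
  show ((t : SLn) : Mx) * ((s : SLn) : Mx) = ((s : SLn) : Mx) * ((t : SLn) : Mx)
  rw [hs, Matrix.mul_smul, Matrix.smul_mul, Matrix.mul_one, Matrix.one_mul]

theorem finite_psu : Finite (Cfsg.PSU n F q) := by
  haveI : Finite SLn := Finite.of_injective (fun s : SLn => (s : Mx)) Subtype.val_injective
  haveI : Finite ↥(Cfsg.SU n F q) := inferInstance
  exact Finite.of_surjective (QuotientGroup.mk' (Subgroup.center ↥(Cfsg.SU n F q)))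
    (QuotientGroup.mk'_surjective _)

theorem finite_aut_psu : Finite (MulAut (Cfsg.PSU n F q)) := by
  haveI := finite_psu (n := n) (F := F) (q := q)
  exact Finite.of_injective (fun e : MulAut (Cfsg.PSU n F q) => (e : Cfsg.PSU n F q → Cfsg.PSU n F q))
    DFunLike.coe_injective

/-- Automorphisms of a finite field commute. -/
theorem ringAut_comm (hF : Fintype.card F = q ^ 2) (ρ σ : RingAut F) : ρ * σ = σ * ρ := by
  obtain ⟨p, k, hp, -, hqk⟩ := q_prime_pow hF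
  haveI : Fact p.Prime := ⟨hp⟩
  have hF' : Fintype.card F = p ^ (k * 2) := by rw [hF, hqk, pow_mul]
  obtain ⟨e⟩ := Cfsg.Agent.Lib.Helper43.AutPSL2.exists_ringAut_equiv (F := F) hF'
  apply e.injective
  rw [map_mul, map_mul]
  exact mul_comm _ _

end basic

section sub

variable {n : ℕ} {F : Type*} [Field F] [Fintype F] {q : ℕ} {F₀ : Type*} [Field F₀] [Fintype F₀]
  {q₀ : ℕ}

local notation "Mx" => Matrix (Fin n) (Fin n) F
local notation "SLn" => Matrix.SpecialLinearGroup (Fin n) F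
local notation "GLn" => GL (Fin n) F
local notation "Mx₀" => Matrix (Fin n) (Fin n) F₀
local notation "SL₀" => Matrix.SpecialLinearGroup (Fin n) F₀
local notation "GL₀" => GL (Fin n) F₀

/-- The special unitary group of the fixed field inside the special unitary group. -/
def mapS (hF : Fintype.card F = q ^ 2) (hF₀ : Fintype.card F₀ = q₀ ^ 2) {r : ℕ}
    (hqq : q = q₀ ^ r) (hr : Odd r) (j : F₀ →+* F) : ↥(Cfsg.SU n F₀ q₀) →* ↥(Cfsg.SU n F q) where
  toFun s := ⟨Matrix.SpecialLinearGroup.map j (s : SL₀),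
    fun u v => (mapJ hF hF₀ hqq hr j (suGU s)).2 u v⟩
  map_one' := Subtype.ext (map_one _)
  map_mul' _ _ := Subtype.ext (map_mul _ _ _)

theorem mapS_coe (hF : Fintype.card F = q ^ 2) (hF₀ : Fintype.card F₀ = q₀ ^ 2) {r : ℕ}
    (hqq : q = q₀ ^ r) (hr : Odd r) (j : F₀ →+* F) (s : ↥(Cfsg.SU n F₀ q₀)) :
    (((mapS hF hF₀ hqq hr j s : ↥(Cfsg.SU n F q)) : SLn) : Mx) = ((s : SL₀) : Mx₀).map j := rfl

theorem mapJ_suGU (hF : Fintype.card F = q ^ 2) (hF₀ : Fintype.card F₀ = q₀ ^ 2) {r : ℕ}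
    (hqq : q = q₀ ^ r) (hr : Odd r) (j : F₀ →+* F) (s : ↥(Cfsg.SU n F₀ q₀)) :
    mapJ hF hF₀ hqq hr j (suGU s) = suGU (mapS hF hF₀ hqq hr j s) := by
  apply Subtype.ext
  apply Units.ext
  rfl

/-- The automorphism induced by a special unitary matrix over the fixed field is inner. -/
theorem theta_inner (hF : Fintype.card F = q ^ 2) (hF₀ : Fintype.card F₀ = q₀ ^ 2) {r : ℕ}
    (hqq : q = q₀ ^ r) (hr : Odd r) (j : F₀ →+* F) (s : ↥(Cfsg.SU n F₀ q₀)) :
    (cV (mapJ hF hF₀ hqq hr j (suGU s)) : MulAut (Cfsg.PSU n F q)) =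
      MulAut.conj (QuotientGroup.mk (mapS hF hF₀ hqq hr j s) : Cfsg.PSU n F q) := by
  rw [mapJ_suGU, cV_suGU]

theorem fAutU_mapS (hF : Fintype.card F = q ^ 2) (hF₀ : Fintype.card F₀ = q₀ ^ 2) {r : ℕ}
    (hqq : q = q₀ ^ r) (hr : Odd r) (j : F₀ →+* F) (ρ : RingAut F) (ρ₀ : RingAut F₀)
    (hρ : ∀ a : F₀, j (ρ₀ a) = ρ (j a)) (s : ↥(Cfsg.SU n F₀ q₀)) :
    PSUAut.fAutU ρ (mapS hF hF₀ hqq hr j s) = mapS hF hF₀ hqq hr j (PSUAut.fAutU ρ₀ s) := by
  apply Subtype.ext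
  apply Subtype.ext
  ext a b
  show ρ (j (((s : SL₀) : Mx₀) a b)) = j (ρ₀ (((s : SL₀) : Mx₀) a b))
  rw [hρ]

/-- The field automorphism fixes the image of the special unitary group of the fixed field. -/
theorem fU_mapS (hF : Fintype.card F = q ^ 2) (hF₀ : Fintype.card F₀ = q₀ ^ 2) {r : ℕ}
    (hqq : q = q₀ ^ r) (hr : Odd r) (σ : RingAut F) (j : F₀ →+* F) (hj : IsFixEmb σ j)
    (s : ↥(Cfsg.SU n F₀ q₀)) :
    (PSUAut.fU σ : MulAut (Cfsg.PSU n F q)) (QuotientGroup.mk (mapS hF hF₀ hqq hr j s)) =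
      QuotientGroup.mk (mapS hF hF₀ hqq hr j s) := by
  rw [PSUAut.fU_mk]
  congr 1
  apply Subtype.ext
  apply Subtype.ext
  ext a b
  show σ (j (((s : SL₀) : Mx₀) a b)) = j (((s : SL₀) : Mx₀) a b)
  exact (hj _).mpr ⟨_, rfl⟩

theorem theta_comm (hF : Fintype.card F = q ^ 2) (hF₀ : Fintype.card F₀ = q₀ ^ 2) {r : ℕ}
    (hqq : q = q₀ ^ r) (hr : Odd r) (σ : RingAut F) (j : F₀ →+* F) (hj : IsFixEmb σ j)
    (k : ↥(Cfsg.GU n F₀ q₀)) :
    (PSUAut.fU σ : MulAut (Cfsg.PSU n F q)) * cV (mapJ hF hF₀ hqq hr j k) =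
      cV (mapJ hF hF₀ hqq hr j k) * PSUAut.fU σ := by
  rw [fU_cV]
  have h1 : mapV σ (mapJ hF hF₀ hqq hr j k) = mapJ hF hF₀ hqq hr j k :=
    Subtype.ext (glmap_map_of_fix σ j hj (k : GL₀))
  rw [h1]

theorem theta_eq_one_iff (hF : Fintype.card F = q ^ 2) (hn : 3 ≤ n) (h32 : ¬ (n = 3 ∧ q = 2))
    (hF₀ : Fintype.card F₀ = q₀ ^ 2) {r : ℕ} (hqq : q = q₀ ^ r) (hr : Odd r) (j : F₀ →+* F)
    (k : ↥(Cfsg.GU n F₀ q₀)) :
    (cV (mapJ hF hF₀ hqq hr j k) : MulAut (Cfsg.PSU n F q)) = 1 ↔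
      ∃ c : F₀ˣ, ((k : GL₀) : Mx₀) = (c : F₀) • (1 : Mx₀) := by
  have h := theta_ker (n := n) hF hn h32 hF₀ hqq hr j
  have h1 : k ∈ ((cV : ↥(Cfsg.GU n F q) →* MulAut (Cfsg.PSU n F q)).comp
      (mapJ hF hF₀ hqq hr j)).ker ↔
      (cV (mapJ hF hF₀ hqq hr j k) : MulAut (Cfsg.PSU n F q)) = 1 := MonoidHom.mem_ker
  rw [← h1, h, Subgroup.mem_subgroupOf, Cfsg.Geo.mem_scalars_iff]

/-- Restriction of a field automorphism commuting with `σ` to the fixed field of `σ`. -/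
theorem exists_restrict (σ ρ : RingAut F) (hcomm : ∀ a, σ (ρ a) = ρ (σ a)) (j : F₀ →+* F)
    (hj : IsFixEmb σ j) : ∃ ρ₀ : RingAut F₀, ∀ a : F₀, j (ρ₀ a) = ρ (j a) := by
  have hex : ∀ a : F₀, ∃ b : F₀, j b = ρ (j a) := by
    intro a
    apply (hj _).mp
    rw [hcomm, (hj (j a)).mpr ⟨a, rfl⟩]
  choose f hf using hex
  have hinj : Function.Injective f := by
    intro a b hab
    apply j.injective
    apply ρ.injective
    rw [← hf a, ← hf b, hab]
  let f' : F₀ →+* F₀ :=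
    { toFun := f
      map_one' := j.injective (by rw [hf, map_one, map_one])
      map_mul' := fun a b => j.injective (by rw [hf, map_mul, map_mul, map_mul, hf, hf])
      map_zero' := j.injective (by rw [hf, map_zero, map_zero])
      map_add' := fun a b => j.injective (by rw [hf, map_add, map_add, map_add, hf, hf]) }
  have hbij : Function.Bijective f' := ⟨hinj, Finite.surjective_of_injective hinj⟩
  exact ⟨RingEquiv.ofBijective f' hbij, fun a => hf a⟩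


theorem suGU_mul (a b : ↥(Cfsg.SU n F q)) : suGU (a * b) = suGU a * suGU b :=
  map_mul (suGUhom n F q) a b

theorem suGU_inv (a : ↥(Cfsg.SU n F q)) : suGU a⁻¹ = (suGU a)⁻¹ :=
  map_inv (suGUhom n F q) a

theorem suGU_uAut (k : ↥(Cfsg.GU n F q)) (s : ↥(Cfsg.SU n F q)) :
    suGU (PSUAut.uAut (PSUAut.ofGU (k : GLn) k.2) s) = k * suGU s * k⁻¹ := by
  apply Subtype.ext
  apply Units.ext
  rfl

/-- Conjugation by a unitary matrix over the fixed field, on the image of the special unitary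
group of the fixed field. -/
theorem cV_mapJ_mk (hF : Fintype.card F = q ^ 2) (hF₀ : Fintype.card F₀ = q₀ ^ 2) {r : ℕ}
    (hqq : q = q₀ ^ r) (hr : Odd r) (j : F₀ →+* F) (k : ↥(Cfsg.GU n F₀ q₀))
    (t : ↥(Cfsg.SU n F₀ q₀)) :
    (cV (mapJ hF hF₀ hqq hr j k) : MulAut (Cfsg.PSU n F q))
        (QuotientGroup.mk (mapS hF hF₀ hqq hr j t)) =
      QuotientGroup.mk (mapS hF hF₀ hqq hr j (PSUAut.uAut (PSUAut.ofGU (k : GL₀) k.2) t)) := by
  rw [cV_apply, PSUAut.cU_mk]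
  congr 1
  apply Subtype.ext
  apply Subtype.ext
  show ((Matrix.GeneralLinearGroup.map j (k : GL₀) : GLn) : Mx) * ((t : SL₀) : Mx₀).map j *
      (((Matrix.GeneralLinearGroup.map j (k : GL₀))⁻¹ : GLn) : Mx) =
    (((k : GL₀) : Mx₀) * ((t : SL₀) : Mx₀) * (((k : GL₀)⁻¹ : GL₀) : Mx₀)).map j
  rw [← map_inv, Matrix.map_mul, Matrix.map_mul]
  rfl

/-- Equality in `PSU_n` of the big field, for elements coming from the fixed field, descends
to `PSU_n` of the fixed field. -/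
theorem mk_eq_of_mapS (hF : Fintype.card F = q ^ 2) (hn : 3 ≤ n) (h32 : ¬ (n = 3 ∧ q = 2))
    (hF₀ : Fintype.card F₀ = q₀ ^ 2) {r : ℕ} (hqq : q = q₀ ^ r) (hr : Odd r) (j : F₀ →+* F)
    (t s : ↥(Cfsg.SU n F₀ q₀))
    (h : (QuotientGroup.mk (mapS hF hF₀ hqq hr j t) : Cfsg.PSU n F q) =
      QuotientGroup.mk (mapS hF hF₀ hqq hr j s)) :
    (QuotientGroup.mk t : Cfsg.PSU n F₀ q₀) = QuotientGroup.mk s := by
  have h1 : (cV (mapJ hF hF₀ hqq hr j (suGU (t * s⁻¹))) : MulAut (Cfsg.PSU n F q)) = 1 := by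
    rw [theta_inner, map_mul, map_inv, QuotientGroup.mk_mul, QuotientGroup.mk_inv, h,
      mul_inv_cancel, map_one]
  rw [theta_eq_one_iff hF hn h32 hF₀ hqq hr j] at h1
  obtain ⟨c, hc⟩ := h1
  have h2 : t * s⁻¹ ∈ Subgroup.center ↥(Cfsg.SU n F₀ q₀) := su_scalar_center _ (c : F₀) hc
  have h3 : (QuotientGroup.mk (t * s⁻¹) : Cfsg.PSU n F₀ q₀) = 1 :=
    (QuotientGroup.eq_one_iff _).mpr h2
  rw [QuotientGroup.mk_mul, QuotientGroup.mk_inv, mul_inv_eq_one] at h3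
  exact h3

/-- An inner-diagonal-times-field automorphism over the fixed field acting trivially (inside
the big group) is trivial. -/
theorem key (hF : Fintype.card F = q ^ 2) (hn : 3 ≤ n) (h32 : ¬ (n = 3 ∧ q = 2))
    (hF₀ : Fintype.card F₀ = q₀ ^ 2) (h32₀ : ¬ (n = 3 ∧ q₀ = 2)) {r : ℕ} (hqq : q = q₀ ^ r)
    (hr : Odd r) (j : F₀ →+* F) (k : ↥(Cfsg.GU n F₀ q₀)) (ρ₀ : RingAut F₀)
    (h : ∀ s : ↥(Cfsg.SU n F₀ q₀),
      (cV (mapJ hF hF₀ hqq hr j k) : MulAut (Cfsg.PSU n F q))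
          (QuotientGroup.mk (mapS hF hF₀ hqq hr j (PSUAut.fAutU ρ₀ s))) =
        QuotientGroup.mk (mapS hF hF₀ hqq hr j s)) :
    ρ₀ = 1 ∧ (cV (mapJ hF hF₀ hqq hr j k) : MulAut (Cfsg.PSU n F q)) = 1 := by
  have h1 : (cV k * PSUAut.fU ρ₀ : MulAut (Cfsg.PSU n F₀ q₀)) = 1 := by
    ext x
    obtain ⟨s, rfl⟩ := QuotientGroup.mk_surjective x
    rw [MulAut.mul_apply, PSUAut.fU_mk, cV_apply, PSUAut.cU_mk, MulAut.one_apply]
    apply mk_eq_of_mapS hF hn h32 hF₀ hqq hr j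
    rw [← cV_mapJ_mk]
    exact h s
  have h2 : (PSUAut.fU ρ₀ : MulAut (Cfsg.PSU n F₀ q₀)) = cV k⁻¹ := by
    rw [map_inv]
    exact eq_inv_of_mul_eq_one_right h1
  have hρ : ρ₀ = 1 := PSUOut.eq_one_of_fU_eq hF₀ hn h32₀ ρ₀ k⁻¹ h2
  refine ⟨hρ, ?_⟩
  rw [hρ, map_one, mul_one, cV_apply, PSUAut.cU_eq_one_iff hF₀ hn h32₀] at h1
  exact (theta_eq_one_iff hF hn h32 hF₀ hqq hr j k).mpr h1


/-- If `p` divides the number of fixed points of the field automorphism, the special unitary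
group of the fixed field induces an automorphism of order `p`. -/
theorem exists_order_p (hF : Fintype.card F = q ^ 2) (hn : 3 ≤ n) (h32 : ¬ (n = 3 ∧ q = 2))
    (hF₀ : Fintype.card F₀ = q₀ ^ 2) (p : ℕ) [Fact p.Prime] (hqq : q = q₀ ^ p) (hr : Odd p)
    (σ : RingAut F) (hσ : orderOf σ = p) (j : F₀ →+* F) (hj : IsFixEmb σ j)
    (hdiv : p ∣ Nat.card ↥(MonoidHom.eqLocus
      (PSUAut.fU σ : MulAut (Cfsg.PSU n F q)).toMonoidHom (MonoidHom.id (Cfsg.PSU n F q)))) :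
    ∃ s₀ : ↥(Cfsg.SU n F₀ q₀),
      (cV (mapJ hF hF₀ hqq hr j (suGU s₀)) : MulAut (Cfsg.PSU n F q)) ≠ 1 ∧
      (cV (mapJ hF hF₀ hqq hr j (suGU s₀)) : MulAut (Cfsg.PSU n F q)) ^ p = 1 := by
  classical
  haveI := finite_psu (n := n) (F := F) (q := q)
  haveI := finite_aut_psu (n := n) (F := F) (q := q)
  have hp : p.Prime := Fact.out
  by_cases hq : p ∣ q₀ + 1
  · have hcard : p ∣ Nat.card F₀ˣ := by
      rw [Nat.card_eq_fintype_card, Fintype.card_units, PSUSplit.card_sub_one hF₀]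
      exact Dvd.dvd.mul_left hq _
    obtain ⟨ζ, hζ⟩ := exists_prime_orderOf_dvd_card' p hcard
    obtain ⟨i0, hi0⟩ : ∃ i0 : Fin n, i0.val = 0 := ⟨⟨0, by omega⟩, rfl⟩
    obtain ⟨i1, hi1⟩ : ∃ i1 : Fin n, i1.val = 1 := ⟨⟨1, by omega⟩, rfl⟩
    obtain ⟨i2, hi2⟩ : ∃ i2 : Fin n, i2.val = 2 := ⟨⟨2, by omega⟩, rfl⟩
    have h01 : i0 ≠ i1 := by
      intro h'
      have := congrArg Fin.val h'
      omega
    have h20 : i2 ≠ i0 := by
      intro h'
      have := congrArg Fin.val h'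
      omega
    have h21 : i2 ≠ i1 := by
      intro h'
      have := congrArg Fin.val h'
      omega
    obtain ⟨d, hd⟩ : ∃ d : Fin n → F₀ˣ, d = Pi.mulSingle i0 ζ * Pi.mulSingle i1 ζ⁻¹ := ⟨_, rfl⟩
    have hd0 : d i0 = ζ := by
      rw [hd, Pi.mul_apply, Pi.mulSingle_eq_same, Pi.mulSingle_eq_of_ne h01, mul_one]
    have hd2 : d i2 = 1 := by
      rw [hd, Pi.mul_apply, Pi.mulSingle_eq_of_ne h20, Pi.mulSingle_eq_of_ne h21, one_mul]
    have hdm : ∀ m : ℕ, ζ ^ m = 1 → ∀ i, d i ^ m = 1 := by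
      intro m hm i
      by_cases h0 : i = i0
      · rw [h0, hd0]; exact hm
      · by_cases h1 : i = i1
        · rw [h1, hd, Pi.mul_apply, Pi.mulSingle_eq_same, Pi.mulSingle_eq_of_ne (Ne.symm h01),
            one_mul, inv_pow, hm, inv_one]
        · rw [hd, Pi.mul_apply, Pi.mulSingle_eq_of_ne h0, Pi.mulSingle_eq_of_ne h1, one_mul,
            one_pow]
    have hζp : ζ ^ p = 1 := by rw [← hζ]; exact pow_orderOf_eq_one ζ
    have hζq : ζ ^ (q₀ + 1) = 1 := by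
      obtain ⟨e, he⟩ := hq
      rw [he, pow_mul, hζp, one_pow]
    have hprod : ∏ i, d i = 1 := by
      rw [hd]
      simp only [Pi.mul_apply]
      rw [Finset.prod_mul_distrib, prod_mulSingle, prod_mulSingle, mul_inv_cancel]
    have hdet : (diagGL d : Mx₀).det = 1 := by
      rw [det_diagGL, hprod]
      rfl
    have hgU : diagGL d ∈ Cfsg.GU n F₀ q₀ := by
      rw [PSUAut.mem_GU_iff hF₀]
      rw [diagGL_coe, Matrix.diagonal_transpose, Matrix.diagonal_map (map_zero _),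
        Matrix.diagonal_mul_diagonal, ← Matrix.diagonal_one]
      congr 1
      ext i
      rw [frobQ_apply, ← pow_succ', ← Units.val_pow_eq_pow_val, hdm _ hζq i, Units.val_one]
    obtain ⟨s₀, hs₀⟩ : ∃ s₀ : ↥(Cfsg.SU n F₀ q₀), suGU s₀ = ⟨diagGL d, hgU⟩ :=
      ⟨⟨⟨(diagGL d : Mx₀), hdet⟩, fun u v => hgU u v⟩, Subtype.ext (Units.ext rfl)⟩
    refine ⟨s₀, ?_, ?_⟩
    · intro h
      rw [theta_eq_one_iff hF hn h32 hF₀ hqq hr j, hs₀] at h
      obtain ⟨c, hc⟩ := h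
      have hc' : Matrix.diagonal (fun i => ((d i : F₀ˣ) : F₀)) = (c : F₀) • (1 : Mx₀) := hc
      have e0 := congrFun (congrFun hc' i0) i0
      have e2 := congrFun (congrFun hc' i2) i2
      rw [Matrix.diagonal_apply_eq, Matrix.smul_apply, Matrix.one_apply_eq, smul_eq_mul,
        mul_one] at e0 e2
      have e3 : ζ = 1 := by
        apply Units.ext
        rw [← hd0, e0, ← e2, hd2]
      rw [e3, orderOf_one] at hζ
      exact hp.one_lt.ne hζ
    · rw [← map_pow, ← map_pow]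
      have e : (suGU s₀) ^ p = 1 := by
        rw [hs₀]
        apply Subtype.ext
        rw [Subgroup.coe_pow]
        show (diagGL d) ^ p = 1
        rw [← diagHom_apply, ← map_pow]
        have : d ^ p = 1 := funext (fun i => hdm p hζp i)
        rw [this, map_one]
      rw [e, map_one, map_one]
  · obtain ⟨y, hy⟩ := exists_prime_orderOf_dvd_card' p hdiv
    have hfix : PSUAut.fU σ (y : Cfsg.PSU n F q) = (y : Cfsg.PSU n F q) := y.2
    have hmem : (MulAut.conj (y : Cfsg.PSU n F q) : MulAut (Cfsg.PSU n F q)) ∈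
        (cV : ↥(Cfsg.GU n F q) →* MulAut (Cfsg.PSU n F q)).range ⊓
          Subgroup.centralizer {(PSUAut.fU σ : MulAut (Cfsg.PSU n F q))} := by
      refine ⟨inn_le_range_cV ⟨_, rfl⟩, ?_⟩
      show MulAut.conj (y : Cfsg.PSU n F q) ∈
        Subgroup.centralizer {(PSUAut.fU σ : MulAut (Cfsg.PSU n F q))}
      rw [Subgroup.mem_centralizer_iff]
      intro z hz
      rw [Set.mem_singleton_iff] at hz
      subst hz
      have h1 := conj_aut (PSUAut.fU σ : MulAut (Cfsg.PSU n F q)) (y : Cfsg.PSU n F q)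
      rw [hfix, mul_inv_eq_iff_eq_mul] at h1
      exact h1
    rw [inf_centralizer_fU hF hn h32 hF₀ hqq hr σ j hj hσ] at hmem
    obtain ⟨k, hk⟩ := hmem
    have hk' : (cV (mapJ hF hF₀ hqq hr j k) : MulAut (Cfsg.PSU n F q)) =
        MulAut.conj (y : Cfsg.PSU n F q) := hk
    have hord : orderOf (cV (mapJ hF hF₀ hqq hr j k) : MulAut (Cfsg.PSU n F q)) = p := by
      rw [hk', orderOf_injective _ (PSUOut.conj_injective hF hn h32), Subgroup.orderOf_coe, hy]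
    have hdet : (((k ^ (q₀ + 1) : ↥(Cfsg.GU n F₀ q₀)) : GL₀) : Mx₀).det = 1 := by
      have h1 := PSUSplit.det_norm hF₀ (k : GL₀) k.2
      have h2 : Matrix.GeneralLinearGroup.det ((k ^ (q₀ + 1) : ↥(Cfsg.GU n F₀ q₀)) : GL₀) = 1 := by
        rw [Subgroup.coe_pow, map_pow]
        exact h1
      exact congrArg Units.val h2
    obtain ⟨s₀, hs₀⟩ : ∃ s₀ : ↥(Cfsg.SU n F₀ q₀), suGU s₀ = k ^ (q₀ + 1) :=
      ⟨⟨⟨_, hdet⟩, fun u v => (k ^ (q₀ + 1)).2 u v⟩, Subtype.ext (Units.ext rfl)⟩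
    have hcop : Nat.Coprime (orderOf (cV (mapJ hF hF₀ hqq hr j k) : MulAut (Cfsg.PSU n F q)))
        (q₀ + 1) := by
      rw [hord]
      exact (Nat.Prime.coprime_iff_not_dvd hp).mpr hq
    have hord2 : orderOf (cV (mapJ hF hF₀ hqq hr j (suGU s₀)) : MulAut (Cfsg.PSU n F q)) = p := by
      rw [hs₀, map_pow, map_pow, Nat.Coprime.orderOf_pow hcop, hord]
    refine ⟨s₀, ?_, ?_⟩
    · intro h
      rw [h, orderOf_one] at hord2
      exact hp.one_lt.ne hord2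
    · have h1 := pow_orderOf_eq_one
        (cV (mapJ hF hF₀ hqq hr j (suGU s₀)) : MulAut (Cfsg.PSU n F q))
      rw [hord2] at h1
      exact h1

end sub

/-- **Package P3 of S2687.** If `p` (odd) divides the number of fixed points of the field
automorphism `fU σ` of order `p`, the centralizer of `fU σ` has no non-trivial normal
`p'`-subgroup. -/
theorem field_no_core {F : Type*} [Field F] [Fintype F] {q n : ℕ}
    (hF : Fintype.card F = q ^ 2) (hn : 3 ≤ n) (h32 : ¬ (n = 3 ∧ q = 2))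
    (hAut : ∀ β : MulAut (Cfsg.PSU n F q), ∃ (δ φ : MulAut (Cfsg.PSU n F q)) (σ : F ≃+* F),
      Cfsg.IsInnerDiagonalAutPSU δ ∧ Cfsg.IsFieldAutPSUOf σ φ ∧ β = δ * φ)
    {F₀ : Type*} [Field F₀] [Fintype F₀] {q₀ : ℕ} (hF₀ : Fintype.card F₀ = q₀ ^ 2)
    (h32₀ : ¬ (n = 3 ∧ q₀ = 2))
    (p : ℕ) [Fact p.Prime] (hp2 : p ≠ 2) (hqq : q = q₀ ^ p)
    (σ : RingAut F) (hσ : orderOf σ = p) (j : F₀ →+* F) (hj : IsFixEmb σ j)
    (𝒢 : Subgroup (MulAut (Cfsg.PSU n F q)))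
    (hinn : ∀ k : Cfsg.PSU n F q, MulAut.conj k ∈ 𝒢)
    (hdiv : p ∣ Nat.card ↥(MonoidHom.eqLocus
      (PSUAut.fU σ : MulAut (Cfsg.PSU n F q)).toMonoidHom (MonoidHom.id (Cfsg.PSU n F q)))) :
    ¬ HasCore p (𝒢 ⊓ Subgroup.centralizer {(PSUAut.fU σ : MulAut (Cfsg.PSU n F q))}) := by
  rintro ⟨M, hMD, hnorm, hc, hne⟩
  have hp : p.Prime := Fact.out
  have hr : Odd p := hp.odd_of_ne_two hp2
  haveI := finite_aut_psu (n := n) (F := F) (q := q)
  have hcent : ∀ d : MulAut (Cfsg.PSU n F q),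
      d ∈ 𝒢 ⊓ Subgroup.centralizer {(PSUAut.fU σ : MulAut (Cfsg.PSU n F q))} ↔
      d ∈ 𝒢 ∧ PSUAut.fU σ * d = d * PSUAut.fU σ := by
    intro d
    rw [Subgroup.mem_inf, Subgroup.mem_centralizer_iff]
    constructor
    · rintro ⟨h1, h2⟩
      exact ⟨h1, h2 _ rfl⟩
    · rintro ⟨h1, h2⟩
      refine ⟨h1, fun z hz => ?_⟩
      rw [Set.mem_singleton_iff] at hz
      subst hz
      exact h2
  have hθD : ∀ s : ↥(Cfsg.SU n F₀ q₀),
      (cV (mapJ hF hF₀ hqq hr j (suGU s)) : MulAut (Cfsg.PSU n F q)) ∈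
        𝒢 ⊓ Subgroup.centralizer {(PSUAut.fU σ : MulAut (Cfsg.PSU n F q))} := by
    intro s
    rw [hcent]
    refine ⟨?_, theta_comm hF hF₀ hqq hr σ j hj _⟩
    rw [theta_inner]
    exact hinn _
  have hM1 : ∀ a ∈ M, a ^ p = 1 → a = 1 := by
    intro a ha hap
    have h1 : orderOf a ∣ p := orderOf_dvd_of_pow_eq_one hap
    have h2 : orderOf a ∣ Nat.card M := Subgroup.orderOf_dvd_natCard M ha
    have h3 : orderOf a ∣ 1 := by
      rw [← Nat.Coprime.gcd_eq_one hc]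
      exact Nat.dvd_gcd h2 h1
    exact orderOf_eq_one_iff.mp (Nat.dvd_one.mp h3)
  obtain ⟨Θ, hΘ⟩ : ∃ Θ : ↥(Cfsg.SU n F₀ q₀) →* MulAut (Cfsg.PSU n F q),
      ∀ s, Θ s = cV (mapJ hF hF₀ hqq hr j (suGU s)) :=
    ⟨((cV : ↥(Cfsg.GU n F q) →* MulAut (Cfsg.PSU n F q)).comp (mapJ hF hF₀ hqq hr j)).comp
      (suGUhom n F₀ q₀), fun s => rfl⟩
  obtain ⟨N₀, hN₀def⟩ : ∃ N₀ : Subgroup ↥(Cfsg.SU n F₀ q₀), N₀ = M.comap Θ := ⟨_, rfl⟩
  have hN₀mem : ∀ s, s ∈ N₀ ↔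
      (cV (mapJ hF hF₀ hqq hr j (suGU s)) : MulAut (Cfsg.PSU n F q)) ∈ M := by
    intro s
    rw [hN₀def, Subgroup.mem_comap, hΘ]
  haveI hN₀ : N₀.Normal := by
    constructor
    intro n₀ hn₀ g
    rw [hN₀def, Subgroup.mem_comap] at hn₀ ⊢
    rw [map_mul, map_mul, map_inv]
    refine hnorm _ ?_ _ hn₀
    rw [hΘ]
    exact hθD g
  have hperf₀ := Cfsg.Agent.Lib.Helper13.su_commutator_eq_top (F := F₀) hF₀ hn h32₀
  rcases Cfsg.Agent.Lib.Helper13.su_normal_le_center_or_eq_top hF₀ hn h32₀ hperf₀ N₀ with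
    hcen | htop
  · have hB1 : ∀ s : ↥(Cfsg.SU n F₀ q₀),
        (cV (mapJ hF hF₀ hqq hr j (suGU s)) : MulAut (Cfsg.PSU n F q)) ∈ M →
        (cV (mapJ hF hF₀ hqq hr j (suGU s)) : MulAut (Cfsg.PSU n F q)) = 1 := by
      intro s hs
      have h1 := hcen ((hN₀mem s).mpr hs)
      obtain ⟨c, hc'⟩ := su_center_scalar hF₀ hn h32₀ s h1
      exact (theta_eq_one_iff hF hn h32 hF₀ hqq hr j _).mpr ⟨c, hc'⟩
    have hC1 : ∀ y ∈ M, ∀ k : ↥(Cfsg.GU n F₀ q₀),
        y = (cV (mapJ hF hF₀ hqq hr j k) : MulAut (Cfsg.PSU n F q)) → y = 1 := by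
      intro y hy k hk
      have hcomm : ∀ s : ↥(Cfsg.SU n F₀ q₀),
          y * cV (mapJ hF hF₀ hqq hr j (suGU s)) = cV (mapJ hF hF₀ hqq hr j (suGU s)) * y := by
        intro s
        have hmem : y * (cV (mapJ hF hF₀ hqq hr j (suGU s)) * y⁻¹ *
            (cV (mapJ hF hF₀ hqq hr j (suGU s)))⁻¹) ∈ M :=
          M.mul_mem hy (hnorm _ (hθD s) _ (M.inv_mem hy))
        have heq : y * (cV (mapJ hF hF₀ hqq hr j (suGU s)) * y⁻¹ *
            (cV (mapJ hF hF₀ hqq hr j (suGU s)))⁻¹) =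
            cV (mapJ hF hF₀ hqq hr j
              (suGU (PSUAut.uAut (PSUAut.ofGU ((k : ↥(Cfsg.GU n F₀ q₀)) : GL (Fin n) F₀) k.2) s * s⁻¹))) := by
          rw [suGU_mul, suGU_inv, suGU_uAut, map_mul, map_mul, map_mul, map_inv, map_inv,
            map_mul, map_mul, map_mul, map_inv, map_inv, ← hk]
          group
        rw [heq] at hmem
        have h1 := hB1 _ hmem
        rw [← heq, ← mul_assoc, ← mul_assoc, mul_inv_eq_one, mul_inv_eq_iff_eq_mul] at h1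
        exact h1
      have hk1 := (key hF hn h32 hF₀ h32₀ hqq hr j k 1 (by
        intro s
        rw [map_one, MulAut.one_apply]
        have h1 := hcomm s
        rw [theta_inner] at h1
        have h2 := conj_aut y (QuotientGroup.mk (mapS hF hF₀ hqq hr j s) : Cfsg.PSU n F q)
        rw [h1, mul_inv_cancel_right] at h2
        have h3 := PSUOut.conj_injective hF hn h32 h2
        rw [← hk]
        exact h3.symm)).2
      rw [hk, hk1]
    apply hne
    rw [eq_bot_iff]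
    intro a ha
    rw [Subgroup.mem_bot]
    have haD := hMD ha
    obtain ⟨ρ, u, hau⟩ := PSUOut.twU_exists hF hn hAut a
    have hρσ : (PSUAut.fU ρ : MulAut (Cfsg.PSU n F q)) * PSUAut.fU σ =
        PSUAut.fU σ * PSUAut.fU ρ := by
      rw [← map_mul, ← map_mul, ringAut_comm hF]
    have hacomm : PSUAut.fU σ * a = a * PSUAut.fU σ := ((hcent a).mp haD).2
    have hucomm : (cV u : MulAut (Cfsg.PSU n F q)) * PSUAut.fU σ = PSUAut.fU σ * cV u := by
      rw [hau] at hacomm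
      have h1 : (PSUAut.fU σ : MulAut (Cfsg.PSU n F q)) * cV u * PSUAut.fU ρ =
          cV u * PSUAut.fU σ * PSUAut.fU ρ := by
        rw [mul_assoc, hacomm, mul_assoc, hρσ, mul_assoc]
      exact (mul_right_cancel h1).symm
    obtain ⟨k, hk⟩ := cent_fU hF hn h32 hF₀ hqq hr σ j hj hσ u hucomm
    obtain ⟨ρ₀, hρ₀⟩ := exists_restrict σ ρ (fun b => by
      have := congrArg (fun e : RingAut F => e b) (ringAut_comm hF σ ρ)
      exact this) j hj
    have hafix : ∀ s : ↥(Cfsg.SU n F₀ q₀),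
        a (QuotientGroup.mk (mapS hF hF₀ hqq hr j s) : Cfsg.PSU n F q) =
          QuotientGroup.mk (mapS hF hF₀ hqq hr j s) := by
      intro s
      obtain ⟨t, ht⟩ : ∃ t : Cfsg.PSU n F q, t = QuotientGroup.mk (mapS hF hF₀ hqq hr j s) :=
        ⟨_, rfl⟩
      rw [← ht]
      have htfix : PSUAut.fU σ t = t := by
        rw [ht]
        exact fU_mapS hF hF₀ hqq hr σ j hj s
      have hyD : (MulAut.conj t : MulAut (Cfsg.PSU n F q)) ∈
          𝒢 ⊓ Subgroup.centralizer {(PSUAut.fU σ : MulAut (Cfsg.PSU n F q))} := by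
        rw [hcent]
        refine ⟨hinn t, ?_⟩
        have h1 := conj_aut (PSUAut.fU σ : MulAut (Cfsg.PSU n F q)) t
        rw [htfix, mul_inv_eq_iff_eq_mul] at h1
        exact h1
      have hmem : a * (MulAut.conj t * a⁻¹ * (MulAut.conj t)⁻¹) ∈ M :=
        M.mul_mem ha (hnorm _ hyD _ (M.inv_mem ha))
      have heq : a * (MulAut.conj t * a⁻¹ * (MulAut.conj t)⁻¹) = MulAut.conj (a t * t⁻¹) := by
        rw [map_mul, ← conj_aut a t, map_inv]
        group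
      rw [heq] at hmem
      have hr' : (MulAut.conj (a t * t⁻¹) : MulAut (Cfsg.PSU n F q)) ∈
          (cV : ↥(Cfsg.GU n F q) →* MulAut (Cfsg.PSU n F q)).range ⊓
            Subgroup.centralizer {(PSUAut.fU σ : MulAut (Cfsg.PSU n F q))} :=
        ⟨inn_le_range_cV ⟨_, rfl⟩, (hMD hmem).2⟩
      rw [inf_centralizer_fU hF hn h32 hF₀ hqq hr σ j hj hσ] at hr'
      obtain ⟨k', hk'⟩ := hr'
      have h1 := hC1 _ hmem k' hk'.symm
      have h2 := PSUOut.conj_injective hF hn h32 (h1.trans (map_one _).symm)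
      exact mul_inv_eq_one.mp h2
    obtain ⟨hρ1, hk1⟩ := key hF hn h32 hF₀ h32₀ hqq hr j k ρ₀ (by
      intro s
      have h1 := hafix s
      rw [hau, hk, MulAut.mul_apply, PSUAut.fU_mk, fAutU_mapS hF hF₀ hqq hr j ρ ρ₀ hρ₀] at h1
      exact h1)
    have hσfix : ∀ c : F, σ c = c → ρ c = c := by
      intro c hc'
      obtain ⟨b, rfl⟩ := (hj c).mp hc'
      rw [← hρ₀, hρ1]
      rfl
    have hρz := mem_zpowers_of_fix σ ρ hσfix
    have hρp : ρ ^ p = 1 := by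
      obtain ⟨m, rfl⟩ := Subgroup.mem_zpowers_iff.mp hρz
      rw [← zpow_natCast, ← _root_.zpow_mul, mul_comm, _root_.zpow_mul, zpow_natCast, ← hσ,
        pow_orderOf_eq_one, _root_.one_zpow]
    apply hM1 a ha
    rw [hau, hk, hk1, one_mul, ← map_pow, hρp, map_one]
  · obtain ⟨s₀, hs1, hs2⟩ := exists_order_p hF hn h32 hF₀ p hqq hr σ hσ j hj hdiv
    have hmem : (cV (mapJ hF hF₀ hqq hr j (suGU s₀)) : MulAut (Cfsg.PSU n F q)) ∈ M := by
      rw [← hN₀mem, htop]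
      exact Subgroup.mem_top s₀
    exact hs1 (hM1 _ hmem hs2)

end Cfsg.Agent.Lib.Helper98.PSUBalField
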